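import Mathlib
import Cfsg.Agent.Lib.Helper69.APQ.Defs

/-!
# APQ (S4150), package [T13S]

No subgroup of the symmetric group of degree `13` has order `8580 = 13 · 660`: the number of its
Sylow `13`-subgroups would be `660 / e` with `e ∣ 12`, never `≡ 1 (mod 13)`.
-/

set_option autoImplicit false

universe u

namespace Cfsg.Agent.Lib.Helper93.APQ

open Equiv

theorem pkgT13S : Cfsg.Agent.Lib.Helper69.APQ.PkgT13S.{u} := by
  intro β _ _ G hβ hG
  have : Fact (Nat.Prime 13) := ⟨by norm_num⟩
  have Q : Sylow 13 G := default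
  -- `|Q| = 13`
  have hQ : Nat.card (Q : Subgroup G) = 13 := by
    obtain ⟨k, hk⟩ := (IsPGroup.iff_card (p := 13)).mp Q.isPGroup'
    have hidx := Q.not_dvd_index
    have hmul := Subgroup.card_mul_index (Q : Subgroup G)
    rw [hk, hG] at hmul
    have hk1 : k = 1 := by
      rcases k with _ | _ | k
      · exfalso
        apply hidx
        rw [pow_zero, one_mul] at hmul
        rw [hmul]
        norm_num
      · rfl
      · exfalso
        have h2 : 13 ^ 2 ∣ 8580 := by
          rw [← hmul]
          exact Dvd.dvd.mul_right (pow_dvd_pow 13 (by omega)) _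
        norm_num at h2
    rw [hk, hk1, pow_one]
  have hcyc : IsCyclic (Q : Subgroup G) := isCyclic_of_prime_card hQ
  obtain ⟨q, hgen⟩ := hcyc.exists_generator
  have hq : orderOf q = 13 := by
    rw [orderOf_eq_card_of_forall_mem_zpowers hgen, hQ]
  let σ : Perm β := ((q : G) : Perm β)
  have hσ : orderOf σ = 13 := by
    change orderOf (((q : G) : Perm β)) = 13
    rw [Subgroup.orderOf_coe, Subgroup.orderOf_coe, hq]
  have hct : σ.cycleType = {13} := by
    obtain ⟨n, hn⟩ := Equiv.Perm.cycleType_prime_order (σ := σ) (by rw [hσ]; norm_num)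
    rw [hσ] at hn
    have hsum := Equiv.Perm.sum_cycleType σ
    rw [hn, Multiset.sum_replicate, smul_eq_mul] at hsum
    have hle : σ.support.card ≤ 13 := by
      rw [← hβ]
      exact Finset.card_le_univ _
    have hn0 : n = 0 := by omega
    rw [hn, hn0]
    rfl
  have hcentS : Nat.card (Subgroup.centralizer ({σ} : Set (Perm β))) = 13 := by
    rw [Equiv.Perm.nat_card_centralizer, hct, hβ]
    simp
  -- the centralizer of `Q` in `G`
  have hQC : (Q : Subgroup G) ≤ Subgroup.centralizer ((Q : Subgroup G) : Set G) := by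
    intro a ha
    rw [Subgroup.mem_centralizer_iff]
    intro b hb
    obtain ⟨i, hi⟩ := Subgroup.mem_zpowers_iff.mp (hgen ⟨a, ha⟩)
    obtain ⟨j, hj⟩ := Subgroup.mem_zpowers_iff.mp (hgen ⟨b, hb⟩)
    have h1 : (⟨b, hb⟩ : (Q : Subgroup G)) * ⟨a, ha⟩ = ⟨a, ha⟩ * ⟨b, hb⟩ := by
      rw [← hi, ← hj]
      exact zpow_mul_comm q j i
    exact congrArg Subtype.val h1
  have hC : Nat.card (Subgroup.centralizer ((Q : Subgroup G) : Set G)) = 13 := by
    have hdvd := Subgroup.card_dvd_of_le hQC
    rw [hQ] at hdvd
    have hle : Nat.card (Subgroup.centralizer ((Q : Subgroup G) : Set G)) ≤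
        Nat.card (Subgroup.centralizer ({σ} : Set (Perm β))) := by
      refine Nat.card_le_card_of_injective
        (fun g => ⟨((g : G) : Perm β), ?_⟩) ?_
      · rw [Subgroup.mem_centralizer_iff]
        intro h hh
        rw [Set.mem_singleton_iff] at hh
        subst hh
        have h1 := (Subgroup.mem_centralizer_iff.mp g.2) (q : G) q.2
        exact congrArg Subtype.val h1
      · intro g₁ g₂ h
        have h1 : ((g₁ : G) : Perm β) = ((g₂ : G) : Perm β) := by
          have h2 := congrArg (fun z : Subgroup.centralizer ({σ} : Set (Perm β)) => (z : Perm β)) h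
          exact h2
        exact Subtype.ext (Subtype.ext h1)
    rw [hcentS] at hle
    have hpos : 0 < Nat.card (Subgroup.centralizer ((Q : Subgroup G) : Set G)) := Nat.card_pos
    exact le_antisymm hle (Nat.le_of_dvd hpos hdvd)
  -- the normalizer
  let φ := Subgroup.normalizerMonoidHom (Q : Subgroup G)
  have hker : Nat.card φ.ker = 13 := by
    rw [Subgroup.normalizerMonoidHom_ker,
      Nat.card_congr (Subgroup.subgroupOfEquivOfLe (Subgroup.centralizer_le_normalizer _)).toEquiv,
      hC]
  have hN : Nat.card (Subgroup.normalizer ((Q : Subgroup G) : Set G)) = 13 * Nat.card φ.range := by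
    have h1 := Subgroup.card_mul_index φ.ker
    rw [Subgroup.index_ker, hker] at h1
    exact h1.symm
  have he : Nat.card φ.range ∣ 12 := by
    have h1 := Subgroup.card_subgroup_dvd_card φ.range
    rw [IsCyclic.card_mulAut, hQ, Nat.totient_prime (by norm_num)] at h1
    exact h1
  have hcount := Sylow.card_eq_index_normalizer Q
  have hmod := card_sylow_modEq_one 13 G
  rw [hcount] at hmod
  have hmul := Subgroup.card_mul_index (Subgroup.normalizer ((Q : Subgroup G) : Set G))
  rw [hN, hG] at hmul
  have hmod' : (Subgroup.normalizer ((Q : Subgroup G) : Set G)).index % 13 = 1 := hmod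
  generalize (Subgroup.normalizer ((Q : Subgroup G) : Set G)).index = idx at hmul hmod'
  generalize Nat.card φ.range = e at he hmul
  have he12 : e ≤ 12 := Nat.le_of_dvd (by norm_num) he
  have he' : 12 % e = 0 := Nat.mod_eq_zero_of_dvd he
  interval_cases e <;> omega

end Cfsg.Agent.Lib.Helper93.APQ
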